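import Cfsg.Agent.H165.WL.Tool
import Cfsg.Agent.H378.OmD4Tor

/-!
# S3509: stable subsystems for `F₄`, `G₂`, `³D₄` (helper165)

* `psi_F4`, `psi_G2` : the set of all long roots is stable under the Weyl group (types `D₄`, `A₂`);
* `psi_D4` : every `w · tri` (`w` in the Weyl group of type `D₄`) stabilises a subsystem of type `A₂` unless
  `θ⁴ - θ² + 1 = 0` on the root lattice.
-/

set_option autoImplicit false
set_option linter.unusedSectionVars false

namespace Cfsg.Agent.H165.WL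

open CoxeterSystem Cfsg Cfsg.Lie Cfsg.Lie.ChevalleyDatum
open Cfsg.Agent.ChevalleyStructure Cfsg.Agent.ChevalleyStructure.CoxeterGeom
open Cfsg.Agent.Tits.Roots Cfsg.Agent.Nodes.RGDChev Cfsg.Agent.ChevalleyStructure.Elts
open Cfsg.Agent.ChevalleyStructure.NPerm Cfsg.Agent.Nodes

universe v

/-- the roots of `F₄` -/
def TF : List (List ℤ) := [
  [-2, -4, -3, -2], [-2, -4, -3, -1], [-2, -4, -2, -1], [-2, -3, -2, -1], [-2, -2, -2, -1], [-2, -2, -1, -1],
  [-2, -2, -1, 0], [-1, -3, -2, -1], [-1, -2, -2, -1], [-1, -2, -1, -1], [-1, -2, -1, 0], [-1, -1, -1, -1],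
  [-1, -1, -1, 0], [-1, -1, 0, 0], [-1, 0, 0, 0], [0, -2, -2, -1], [0, -2, -1, -1], [0, -2, -1, 0],
  [0, -1, -1, -1], [0, -1, -1, 0], [0, -1, 0, 0], [0, 0, -1, -1], [0, 0, -1, 0], [0, 0, 0, -1], [0, 0, 0, 1],
  [0, 0, 1, 0], [0, 0, 1, 1], [0, 1, 0, 0], [0, 1, 1, 0], [0, 1, 1, 1], [0, 2, 1, 0], [0, 2, 1, 1],
  [0, 2, 2, 1], [1, 0, 0, 0], [1, 1, 0, 0], [1, 1, 1, 0], [1, 1, 1, 1], [1, 2, 1, 0], [1, 2, 1, 1],
  [1, 2, 2, 1], [1, 3, 2, 1], [2, 2, 1, 0], [2, 2, 1, 1], [2, 2, 2, 1], [2, 3, 2, 1], [2, 4, 2, 1],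
  [2, 4, 3, 1], [2, 4, 3, 2]]

/-- the long roots of `F₄` -/
def PF : List (List ℤ) := [
  [-2, -4, -3, -2], [-2, -4, -3, -1], [-2, -4, -2, -1], [-2, -2, -2, -1], [-2, -2, -1, -1], [-2, -2, -1, 0],
  [0, -2, -2, -1], [0, -2, -1, -1], [0, -2, -1, 0], [0, 0, -1, -1], [0, 0, -1, 0], [0, 0, 0, -1],
  [0, 0, 0, 1], [0, 0, 1, 0], [0, 0, 1, 1], [0, 2, 1, 0], [0, 2, 1, 1], [0, 2, 2, 1], [2, 2, 1, 0],
  [2, 2, 1, 1], [2, 2, 2, 1], [2, 4, 2, 1], [2, 4, 3, 1], [2, 4, 3, 2]]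

/-- the roots of `G₂` -/
def TG : List (List ℤ) := [
  [-3, -2], [-3, -1], [-2, -1], [-1, -1], [-1, 0], [0, -1], [0, 1], [1, 0], [1, 1], [2, 1], [3, 1], [3, 2]]

/-- the long roots of `G₂` -/
def PG : List (List ℤ) := [
  [-3, -2], [-3, -1], [0, -1], [0, 1], [3, 1], [3, 2]]

/-- the roots of `D₄` -/
def TD : List (List ℤ) := [
  [-1, -2, -1, -1], [-1, -1, -1, -1], [-1, -1, -1, 0], [-1, -1, 0, -1], [-1, -1, 0, 0], [-1, 0, 0, 0],
  [0, -1, -1, -1], [0, -1, -1, 0], [0, -1, 0, -1], [0, -1, 0, 0], [0, 0, -1, 0], [0, 0, 0, -1], [0, 0, 0, 1],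
  [0, 0, 1, 0], [0, 1, 0, 0], [0, 1, 0, 1], [0, 1, 1, 0], [0, 1, 1, 1], [1, 0, 0, 0], [1, 1, 0, 0],
  [1, 1, 0, 1], [1, 1, 1, 0], [1, 1, 1, 1], [1, 2, 1, 1]]

theorem tablF : Tabl chevF4 4 TF where
  len := by decide +kernel
  row := by
    have h : ∀ r < 48, (TF.getD r []).length = 4 ∧ ∀ i : Fin 4, (TF.getD r []).getD i 0 = vec chevF4 4 r i := by
      decide +kernel
    exact h

theorem tablG : Tabl chevG2 2 TG where
  len := by decide +kernel
  row := by
    have h : ∀ r < 12, (TG.getD r []).length = 2 ∧ ∀ i : Fin 2, (TG.getD r []).getD i 0 = vec chevG2 2 r i := by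
      decide +kernel
    exact h

theorem tablD : Tabl chevD4 4 TD where
  len := by decide +kernel
  row := by
    have h : ∀ r < 24, (TD.getD r []).length = 4 ∧ ∀ i : Fin 4, (TD.getD r []).getD i 0 = vec chevD4 4 r i := by
      decide +kernel
    exact h

def LF : List ℕ := [46, 45, 43, 32, 42, 31, 41, 26, 30, 24, 25, 23, 22, 21, 17, 16, 6, 5, 15, 4, 2, 1, 0]
def LG : List ℕ := [10, 6, 5, 1, 0]
def LD : List ℕ := [22, 17, 20, 21, 15, 16, 19, 12, 14, 13, 18, 11, 9, 10, 5, 8, 4, 7, 3, 6, 2, 1, 0]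

theorem chkF : chk TF PF = true := by decide +kernel
theorem chainF : chain chevF4 4 [chevF4.nroots - 1] LF = true := by decide +kernel
theorem memF : ∀ v ∈ PF, v = TF.getD (chevF4.nroots - 1) [] ∨ ∃ r ∈ LF, v = TF.getD r [] := by decide +kernel
theorem chkG : chk TG PG = true := by decide +kernel
theorem chainG : chain chevG2 2 [chevG2.nroots - 1] LG = true := by decide +kernel
theorem memG : ∀ v ∈ PG, v = TG.getD (chevG2.nroots - 1) [] ∨ ∃ r ∈ LG, v = TG.getD r [] := by decide +kernel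
theorem chainD : chain chevD4 4 [chevD4.nroots - 1] LD = true := by decide +kernel
theorem memD : ∀ v ∈ TD, v = TD.getD (chevD4.nroots - 1) [] ∨ ∃ r ∈ LD, v = TD.getD r [] := by decide +kernel

/-- stability under the simple reflections, in terms of indices -/
def stab (D : ChevalleyDatum) (l : ℕ) (T P : List (List ℤ)) : Bool :=
  (List.range l).all fun i => (List.range D.nroots).all fun r =>
    !(P.contains (T.getD r [])) || P.contains (T.getD (D.reflectRoot i r) [])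

theorem stabF : stab chevF4 4 TF PF = true := by decide +kernel
theorem stabG : stab chevG2 2 TG PG = true := by decide +kernel

section Long

variable {D : ChevalleyDatum} {l : ℕ} {M : CoxeterMatrix (Fin l)} (hp : IsType D l M) {W : Type v} [Group W]
  (cs : CoxeterSystem M W) {T P : List (List ℤ)}

/-- stability under the Weyl group -/
theorem stable_of (hT : Tabl D l T) (hPT : ∀ v ∈ P, v ∈ T)
    (hst : stab D l T P = true) (w : W) :
    ∀ v ∈ P, ∃ u ∈ P, rep cs hp.isCartan w (vf l v) = vf l u := by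
  have hs : ∀ i < l, ∀ r < D.nroots, T.getD r [] ∈ P → T.getD (D.reflectRoot i r) [] ∈ P := by
    intro i hi r hr h1
    unfold stab at hst
    rw [List.all_eq_true] at hst
    have h2 := hst i (List.mem_range.2 hi)
    rw [List.all_eq_true] at h2
    have h3 := h2 r (List.mem_range.2 hr)
    rw [Bool.or_eq_true, Bool.not_eq_true', ← Bool.not_eq_true, List.contains_iff_mem, List.contains_iff_mem] at h3
    exact h3.resolve_left (not_not.2 h1)
  obtain ⟨ω, rfl⟩ := cs.wordProd_surjective w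
  induction ω with
  | nil =>
    intro v hv
    exact ⟨v, hv, by rw [wordProd_nil, map_one, Module.End.one_apply]⟩
  | cons i ω ih =>
    intro v hv
    obtain ⟨u, hu, e⟩ := ih v hv
    obtain ⟨r, hr, hru⟩ := List.mem_iff_getElem.1 (hPT u hu)
    have hr' : r < D.nroots := by rw [← hT.len]; exact hr
    have hru' : T.getD r [] = u := by rw [List.getD_eq_getElem _ _ hr, hru]
    have h1 := hs i i.2 r hr' (by rw [hru']; exact hu)
    refine ⟨_, h1, ?_⟩
    have h2 : D.reflectRoot i r < D.nroots := reflectRoot_lt hp.inList (lt_rank hp i) hr'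
    rw [wordProd_cons, rep_mul_apply, e, ← hru', hT.vec_eq hr', hT.vec_eq h2, rep_vec hp cs i hr']

end Long

/-- **`F₄`.** -/
theorem psi_F4 (hp : IsType chevF4 4 CoxeterMatrix.F₄) {W : Type v} [Group W]
    (cs : CoxeterSystem CoxeterMatrix.F₄ W) (w : W) :
    PsiSet hp cs (fun x => rep cs hp.isCartan w x) {x | ∃ v ∈ PF, vf 4 v = x} :=
  PsiSet.of_list hp cs tablF chkF chainF memF
    (stable_of hp cs tablF (by decide +kernel) stabF w)

/-- **`G₂`.** -/
theorem psi_G2 (hp : IsType chevG2 2 CoxeterMatrix.G₂) {W : Type v} [Group W]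
    (cs : CoxeterSystem CoxeterMatrix.G₂ W) (w : W) :
    PsiSet hp cs (fun x => rep cs hp.isCartan w x) {x | ∃ v ∈ PG, vf 2 v = x} :=
  PsiSet.of_list hp cs tablG chkG chainG memG
    (stable_of hp cs tablG (by decide +kernel) stabG w)

/-! ### `³D₄` -/

open Cfsg.Agent.H378.OmD4 Cfsg.Agent.H129.TriD4

/-- stable subsystems of type `A₂` of the representatives -/
def PD : Fin 7 → List (List ℤ)
  | 0 => [[1, 2, 1, 1], [1, 1, 1, 1], [0, 1, 0, 0], [-1, -2, -1, -1], [-1, -1, -1, -1], [0, -1, 0, 0]]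
  | 1 => [[1, 2, 1, 1], [1, 1, 0, 1], [0, 1, 1, 0], [-1, -2, -1, -1], [-1, -1, 0, -1], [0, -1, -1, 0]]
  | 2 => [[1, 2, 1, 1], [1, 1, 1, 1], [0, 1, 0, 0], [-1, -2, -1, -1], [-1, -1, -1, -1], [0, -1, 0, 0]]
  | 3 => []
  | 4 => [[1, 1, 0, 0], [1, 0, 0, 0], [0, 1, 0, 0], [-1, -1, 0, 0], [-1, 0, 0, 0], [0, -1, 0, 0]]
  | 5 => [[1, 1, 0, 0], [1, 0, 0, 0], [0, 1, 0, 0], [-1, -1, 0, 0], [-1, 0, 0, 0], [0, -1, 0, 0]]
  | 6 => [[1, 2, 1, 1], [1, 1, 1, 0], [0, 1, 0, 1], [-1, -2, -1, -1], [-1, -1, -1, 0], [0, -1, 0, -1]]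

theorem chkD : ∀ i : Fin 7, i ≠ 3 → chk TD (PD i) = true := by decide +kernel

theorem memPD : ∀ i : Fin 7, ∀ v ∈ PD i, v ∈ TD := by decide +kernel

/-- the list of a vector -/
def toL (v : V) : List ℤ := [v.a, v.b, v.c, v.d]

theorem vf_toL (v : V) : vf 4 (toL v) = v.fn := by
  funext i; fin_cases i <;> rfl

def ofL (v : List ℤ) : V := ⟨v.getD 0 0, v.getD 1 0, v.getD 2 0, v.getD 3 0⟩

theorem vf_eq_fn (v : List ℤ) : vf 4 v = (ofL v).fn := by
  funext i; fin_cases i <;> rfl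

theorem stabD : ∀ i : Fin 7, ∀ v ∈ PD i, toL ((reps i).ap (ofL v)) ∈ PD i := by decide +kernel

variable {W : Type v} [Group W] (cs : CoxeterSystem coxeterD4 W)

/-- **`³D₄`.** -/
theorem psi_D4 (w : W) :
    (∃ Ψ, PsiSet RGDTwD4.hp cs (fun x => rep cs RGDTwD4.hp.isCartan w (tri x)) Ψ) ∨
    (∀ x : Fin 4 → ℤ, ((fun x => rep cs RGDTwD4.hp.isCartan w (tri x))^[4] x) + x =
      (fun x => rep cs RGDTwD4.hp.isCartan w (tri x))^[2] x) := by
  obtain ⟨v, i, h⟩ := exists_conj_rep cs w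
  set φ : (Fin 4 → ℤ) → (Fin 4 → ℤ) := fun x => rep cs RGDTwD4.hp.isCartan v
    (rep cs RGDTwD4.hp.isCartan w (tri (rep cs RGDTwD4.hp.isCartan v⁻¹ x))) with hφ
  have hφ' : ∀ u : V, φ u.fn = ((reps i).ap u).fn := h
  set θ : (Fin 4 → ℤ) → (Fin 4 → ℤ) := fun x => rep cs RGDTwD4.hp.isCartan w (tri x) with hθ
  have e1 : ∀ x, θ x = rep cs RGDTwD4.hp.isCartan v⁻¹ (φ (rep cs RGDTwD4.hp.isCartan v x)) := by
    intro x
    show θ x = rep cs RGDTwD4.hp.isCartan v⁻¹ (rep cs RGDTwD4.hp.isCartan v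
      (rep cs RGDTwD4.hp.isCartan w (tri (rep cs RGDTwD4.hp.isCartan v⁻¹ (rep cs RGDTwD4.hp.isCartan v x)))))
    rw [rep_inv_apply, rep_inv_apply]
  by_cases hi : i = 3
  · right
    subst hi
    have e2 : ∀ (n : ℕ) x, θ^[n] x = rep cs RGDTwD4.hp.isCartan v⁻¹ (φ^[n] (rep cs RGDTwD4.hp.isCartan v x)) := by
      intro n
      induction n with
      | zero => intro x; show x = _; rw [Function.iterate_zero_apply, rep_inv_apply]
      | succ n ih =>
        intro x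
        rw [Function.iterate_succ_apply', ih, e1, Function.iterate_succ_apply']
        congr 2
        rw [← rep_mul_apply, mul_inv_cancel, map_one, Module.End.one_apply]
    intro x
    rw [e2, e2]
    obtain ⟨u, hu⟩ := exists_fn (rep cs RGDTwD4.hp.isCartan v x)
    have hx : x = rep cs RGDTwD4.hp.isCartan v⁻¹ u.fn := by rw [hu, rep_inv_apply]
    rw [← hu]
    have h5 : φ^[4] u.fn + u.fn = φ^[2] u.fn := ?_
    · have h6 := congrArg (rep cs RGDTwD4.hp.isCartan v⁻¹) h5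
      rw [map_add] at h6
      rw [← h6, ← hx]
    simp only [Function.iterate_succ_apply, Function.iterate_zero_apply, hφ']
    rw [← fn_add]
    congr 1
    ext <;> simp only [reps, Mx.ap, V.add] <;> ring
  · left
    have h1 : PsiSet RGDTwD4.hp cs φ {x | ∃ v ∈ PD i, vf 4 v = x} := by
      refine PsiSet.of_list RGDTwD4.hp cs tablD (chkD i hi) chainD (fun v hv => memD v (memPD i v hv)) ?_
      intro u hu
      refine ⟨_, stabD i u hu, ?_⟩
      rw [vf_toL, vf_eq_fn, hφ']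
    have h2 := h1.conj v⁻¹
    refine ⟨_, h2.mono fun x _ => ?_⟩
    rw [inv_inv]
    exact e1 x

end Cfsg.Agent.H165.WL
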